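import Cfsg.Agent.H7.L2q

set_option autoImplicit false
set_option linter.unusedSectionVars false

/-! Controlling Sylow intersections and controlling fusion. -/

namespace CfsgH7

open Subgroup Cfsg

section FamFus

variable {G : Type*} [Group G] [Finite G] {p : ℕ} [hp : Fact p.Prime]

theorem mem_syl_conj {𝓕 : Set (Subgroup G)} (h𝓕 : IsNormalSet 𝓕) {S X : Subgroup G} {T : Subgroup G} (hX : X ∈ sylowMembers p 𝓕 T) (u : G)
    (hT : T = cj u S) : cj u⁻¹ X ∈ sylowMembers p 𝓕 S := by
  obtain ⟨h1, P, hP⟩ := hX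
  have h2 : IsSyl p (T ⊓ X) X := by rw [← hP]; exact isSyl_map_subtype P
  have h3 := h2.cj u⁻¹
  rw [cj_inf, hT, cj_inv_cj] at h3
  obtain ⟨P', -, hP'⟩ := h3.exists_sylow
  exact ⟨h𝓕 X h1 u, P', hP'⟩

theorem take_succ_prod {n : ℕ} (x : Fin n → G) (i : Fin n) : ((List.ofFn x).take (i.val + 1)).prod = ((List.ofFn x).take i.val).prod * x i := by
  rw [List.take_succ_eq_append_getElem (by rw [List.length_ofFn]; exact i.2), List.prod_append, List.prod_singleton, List.getElem_ofFn]

theorem S2939_all (𝓕 : Set (Subgroup G)) (h𝓕 : IsNormalSet 𝓕) : ControlsSylowIntersections p 𝓕 ↔ FamilyStronglyControlsFusion p 𝓕 := by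
  constructor
  · intro hc S A g hA hA1 hAg
    have hAg' : ∀ a ∈ A, g⁻¹ * a * g ∈ (S : Subgroup G) := fun a ha => hAg ⟨a, ha, rfl⟩
    by_cases hST : S = g • S
    · refine ⟨0, Fin.elim0, Fin.elim0, g, ?_, fun i => i.elim0, by simp, fun i => i.elim0⟩
      rw [mem_normalizer_iff_cj]
      exact (congrArg (fun S : Sylow p G => (S : Subgroup G)) hST).symm
    · have hAT : ∀ a ∈ A, a ∈ ((g • S : Sylow p G) : Subgroup G) := fun a ha => mem_cj.mpr (hAg' a ha)
      have hne : (S : Subgroup G) ⊓ ((g • S : Sylow p G) : Subgroup G) ≠ ⊥ := by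
        obtain ⟨a, ha, ha1⟩ := hA1
        intro h
        have : a ∈ (S : Subgroup G) ⊓ ((g • S : Sylow p G) : Subgroup G) := Subgroup.mem_inf.mpr ⟨hA ha, hAT a ha⟩
        rw [h, Subgroup.mem_bot] at this
        exact ha1 this
      obtain ⟨n, c, X, x, h0, hl, hi⟩ := hc S (g • S) hST hne
      set R : Subgroup G → G → Prop := fun D y => ∃ Y, Y ∈ sylowMembers p 𝓕 (S : Subgroup G) ∧ y ∈ Y ∧ D = (S : Subgroup G) ⊓ Y with hR
      have key : ∀ i : Fin (n + 1), (∀ a ∈ A, a ∈ (c i : Subgroup G)) ∧ ∃ u : G, (c i : Subgroup G) = cj u (S : Subgroup G) ∧ GCh R A u := by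
        intro i
        induction i using Fin.induction with
        | zero => exact ⟨fun a ha => by rw [h0]; exact hA ha, 1, by rw [h0, cj_one], GCh.nil A⟩
        | succ i ih =>
          obtain ⟨ih0, u, hu, hch⟩ := ih
          obtain ⟨b1, b2, b3, b4, b5⟩ := hi i
          have hin : ∀ a ∈ A, a ∈ (c i.succ : Subgroup G) ∧ a ∈ X i := fun a ha =>
            Subgroup.mem_inf.mp (b5 (Subgroup.mem_inf.mpr ⟨hA ha, hAT a ha⟩))
          have b4' : cj (x i)⁻¹ (c i.succ : Subgroup G) = (c i.castSucc : Subgroup G) := b4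
          refine ⟨fun a ha => (hin a ha).1, x i * u, ?_, ?_⟩
          · rw [cj_mul, ← hu, ← b4', cj_cj_inv]
          · have h1 : x i * u = u * (u⁻¹ * x i * u) := by group
            rw [h1]
            apply hch.append
            have hY := mem_syl_conj h𝓕 b1 u hu
            refine GCh.single (D := (S : Subgroup G) ⊓ cj u⁻¹ (X i)) ⟨_, hY, ?_, rfl⟩ ?_
            · rw [mem_cj]
              have : u⁻¹⁻¹ * (u⁻¹ * x i * u) * u⁻¹ = x i := by group
              rw [this]; exact b3
            · rintro _ ⟨a, ha, rfl⟩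
              change u⁻¹ * a * u ∈ (S : Subgroup G) ⊓ cj u⁻¹ (X i)
              refine Subgroup.mem_inf.mpr ⟨?_, ?_⟩
              · have := ih0 a ha
                rw [hu, mem_cj] at this
                exact this
              · rw [mem_cj]
                have : u⁻¹⁻¹ * (u⁻¹ * a * u) * u⁻¹ = a := by group
                rw [this]; exact (hin a ha).2
      obtain ⟨hk0, u, hu, hch⟩ := key (Fin.last n)
      rw [hl] at hu
      have hy₀ : u⁻¹ * g ∈ Subgroup.normalizer ((S : Subgroup G) : Set G) := by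
        rw [mem_normalizer_iff_cj, cj_mul]
        change cj u⁻¹ ((g • S : Sylow p G) : Subgroup G) = _
        rw [hu, cj_inv_cj]
      obtain ⟨m, D, y, h1, h2, h3, h4⟩ := hch.toFin
      choose Y hY using h2
      refine ⟨m, Y, y, u⁻¹ * g, hy₀, fun i => ⟨(hY i).1, (hY i).2.1⟩, by rw [h1]; group, fun i => ?_⟩
      have hpre : cset (((List.ofFn y).take i.val).prod) A ⊆ ((D i : Subgroup G) : Set G) := by
        rcases i with ⟨k, hk⟩
        cases k with
        | zero =>
          change cset (((List.ofFn y).take 0).prod) A ⊆ _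
          rw [List.take_zero, List.prod_nil, cset_one]
          exact h3 hk
        | succ k => exact h4 ⟨k, Nat.lt_of_succ_lt hk⟩ hk
      have htk := take_succ_prod y i
      intro z hz
      constructor
      · by_cases hlast : i.val + 1 < m
        · have := h4 i hlast hz
          rw [(hY ⟨i.val + 1, hlast⟩).2.2] at this
          exact (Subgroup.mem_inf.mp this).1
        · have hm : i.val + 1 = m := by have := i.2; omega
          obtain ⟨a, ha, rfl⟩ := hz
          have e : ((List.ofFn y).take (i.val + 1)).prod = u := by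
            rw [← h1, List.take_of_length_le (by rw [List.length_ofFn]; omega)]
          change (((List.ofFn y).take (i.val + 1)).prod)⁻¹ * a * ((List.ofFn y).take (i.val + 1)).prod ∈ (S : Subgroup G)
          rw [e]
          have := hAT a ha
          rw [hu, mem_cj] at this
          exact this
      · obtain ⟨a, ha, rfl⟩ := hz
        have h5 := hpre ⟨a, ha, rfl⟩
        rw [(hY i).2.2] at h5
        have h6 := (Subgroup.mem_inf.mp h5).2
        change (((List.ofFn y).take (i.val + 1)).prod)⁻¹ * a * ((List.ofFn y).take (i.val + 1)).prod ∈ Y i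
        rw [htk]
        have h7 := mul_mem (mul_mem (inv_mem (hY i).2.1) h6) (hY i).2.1
        have e : (y i)⁻¹ * ((((List.ofFn y).take i.val).prod)⁻¹ * a * ((List.ofFn y).take i.val).prod) * y i =
          (((List.ofFn y).take i.val).prod * y i)⁻¹ * a * (((List.ofFn y).take i.val).prod * y i) := by group
        rw [← e]; exact h7
  · intro hf
    apply controls_of_rel
    intro S T hST hne
    obtain ⟨g, hg⟩ := MulAction.exists_smul_eq G S T
    have hgT : (T : Subgroup G) = cj g (S : Subgroup G) := by rw [← hg]; rfl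
    set D := (S : Subgroup G) ⊓ (T : Subgroup G) with hD
    obtain ⟨n, Y, y, y₀, hy₀, hY, hgy, hcond⟩ := hf S (D : Set G) g (fun a ha => (Subgroup.mem_inf.mp ha).1) (by
      obtain ⟨a, ha⟩ := (Subgroup.ne_bot_iff_exists_ne_one).mp hne
      exact ⟨a, a.2, fun h => ha (Subtype.ext h)⟩) (by
      rintro _ ⟨a, ha, rfl⟩
      have := (Subgroup.mem_inf.mp ha).2
      rw [hgT, mem_cj] at this
      exact this)
    have hDS : ∀ k ≤ n, D ≤ cj (((List.ofFn y).take k).prod) (S : Subgroup G) := by
      intro k hk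
      cases k with
      | zero => rw [List.take_zero, List.prod_nil, cj_one]; exact inf_le_left
      | succ k =>
        intro d hd
        rw [mem_cj]
        exact (hcond ⟨k, hk⟩ ⟨d, hd, rfl⟩).1
    have key : ∀ k ≤ n, SRel p 𝓕 D S ((((List.ofFn y).take k).prod) • S) := by
      intro k
      induction k with
      | zero =>
        intro _
        rw [List.take_zero, List.prod_nil, one_smul]; exact Relation.ReflTransGen.refl
      | succ k ih =>
        intro hk
        have hk' : k < n := hk
        refine Relation.ReflTransGen.tail (ih hk'.le) ?_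
        have htk := take_succ_prod y ⟨k, hk'⟩
        change ((List.ofFn y).take (k + 1)).prod = ((List.ofFn y).take k).prod * y ⟨k, hk'⟩ at htk
        set u := ((List.ofFn y).take k).prod with hu
        obtain ⟨⟨hY1, P, hP⟩, hY2⟩ := hY ⟨k, hk'⟩
        have hs : IsSyl p ((S : Subgroup G) ⊓ Y ⟨k, hk'⟩) (Y ⟨k, hk'⟩) := by rw [← hP]; exact isSyl_map_subtype P
        have hYy : cj (y ⟨k, hk'⟩) (Y ⟨k, hk'⟩) = Y ⟨k, hk'⟩ := cj_of_mem hY2
        refine ⟨hDS k hk'.le, hDS (k + 1) hk, cj u (Y ⟨k, hk'⟩), ?_, ?_, ?_, ?_, u * y ⟨k, hk'⟩ * u⁻¹, conj_mem_cj hY2, ?_⟩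
        · have := h𝓕 _ hY1 u⁻¹
          have e : subgroupConjRight u⁻¹ (Y ⟨k, hk'⟩) = cj u (Y ⟨k, hk'⟩) := by unfold subgroupConjRight; rw [inv_inv]
          rwa [e] at this
        · intro d hd
          have h5 := (hcond ⟨k, hk'⟩ ⟨d, hd, rfl⟩).2
          change (((List.ofFn y).take (k + 1)).prod)⁻¹ * d * ((List.ofFn y).take (k + 1)).prod ∈ Y ⟨k, hk'⟩ at h5
          rw [← mem_cj, htk, cj_mul, hYy] at h5
          exact h5
        · have := hs.cj u
          rw [cj_inf] at this
          exact this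
        · have := hs.cj (u * y ⟨k, hk'⟩)
          rw [cj_inf, cj_mul u (y ⟨k, hk'⟩) (Y ⟨k, hk'⟩), hYy] at this
          rw [htk]
          exact this
        · change cj (u * y ⟨k, hk'⟩ * u⁻¹)⁻¹ (cj (((List.ofFn y).take (k + 1)).prod) (S : Subgroup G)) = cj u (S : Subgroup G)
          rw [htk, ← cj_mul]
          congr 1; group
    have h1 := key n le_rfl
    rw [List.take_of_length_le (by rw [List.length_ofFn])] at h1
    have h2 : ((List.ofFn y).prod) • S = T := by
      apply Sylow.ext
      change cj ((List.ofFn y).prod) (S : Subgroup G) = (T : Subgroup G)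
      rw [hgT, hgy, cj_mul, mem_normalizer_iff_cj.mp hy₀]
    rw [h2] at h1
    exact h1

end FamFus

end CfsgH7
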