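import Cfsg.Agent.H7.ZJ3

set_option autoImplicit false

/-!
Ranks in the replacement theorem.
-/

namespace CfsgH7

open Subgroup Cfsg
open scoped commutatorElement

variable {G : Type*} [Group G] {A B : Subgroup G} {x : G}

/-- Elements of order dividing `p` of an abelian subgroup. -/
def omeS (A : Subgroup G) (p : ℕ) (hA : ∀ a ∈ A, ∀ b ∈ A, a * b = b * a) : Subgroup G where
  carrier := {a | a ∈ A ∧ a ^ p = 1}
  one_mem' := ⟨one_mem _, one_pow _⟩
  mul_mem' := by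
    rintro a b ⟨ha, ha'⟩ ⟨hb, hb'⟩
    exact ⟨mul_mem ha hb, by rw [(show Commute a b from hA a ha b hb).mul_pow, ha', hb', one_mul]⟩
  inv_mem' := by
    rintro a ⟨ha, ha'⟩
    exact ⟨inv_mem ha, by rw [inv_pow, ha', inv_one]⟩

theorem mem_omeS {A : Subgroup G} {p : ℕ} {hA : ∀ a ∈ A, ∀ b ∈ A, a * b = b * a} {g : G} : g ∈ omeS A p hA ↔ g ∈ A ∧ g ^ p = 1 := Iff.rfl

theorem omegaOne_eq_omeS {A : Subgroup G} {p : ℕ} (hA : ∀ a ∈ A, ∀ b ∈ A, a * b = b * a) : omegaOne p A = omeS A p hA := by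
  apply le_antisymm
  · unfold omegaOne
    rw [Subgroup.closure_le]
    exact fun a ha => ha
  · intro a ha
    exact Subgroup.subset_closure ha

theorem ReplData.rank [Finite G] (h : ReplData A B x) {p : ℕ} (hp : Odd p) :
    Nat.card ↥(omegaOne p A) ≤ Nat.card ↥(omegaOne p (aStar A x)) := by
  rw [omegaOne_eq_omeS h.comm, omegaOne_eq_omeS h.aStar_comm]
  set K := omeS A p h.comm with hK
  let E : Subgroup G :=
    { carrier := {g | ∃ z ∈ A ⊓ cj x A, z ^ p = 1 ∧ ∃ a ∈ A, a ^ p = 1 ∧ g = z * ⁅a, x⁆}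
      one_mem' := ⟨1, one_mem _, one_pow _, 1, one_mem _, one_pow _, by rw [commutatorElement_one_left, mul_one]⟩
      mul_mem' := by
        rintro _ _ ⟨z, hz, hzp, a, ha, hap, rfl⟩ ⟨w, hw, hwp, b, hb, hbp, rfl⟩
        obtain ⟨y, hy, hy'⟩ := h.v_mul ha hb
        have habp : (a * b) ^ p = 1 := by
          rw [(show Commute a b from h.comm a ha b hb).mul_pow, hap, hbp, one_mul]
        have hyp : y ^ p = 1 := by
          have h1 : y = ⁅a, x⁆ * ⁅b, x⁆ * ⁅a * b, x⁆⁻¹ := by rw [hy', mul_inv_cancel_right]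
          have c1 : Commute ⁅a, x⁆ ⁅b, x⁆ := h.v_comm ha hb
          have c2 : Commute ⁅a, x⁆ ⁅a * b, x⁆ := h.v_comm ha (mul_mem ha hb)
          have c3 : Commute ⁅b, x⁆ ⁅a * b, x⁆ := h.v_comm hb (mul_mem ha hb)
          rw [h1, (c2.mul_left c3).inv_right.mul_pow, c1.mul_pow, inv_pow, h.v_pow ha hp hap, h.v_pow hb hp hbp,
            h.v_pow (mul_mem ha hb) hp habp]
          simp
        have c4 : Commute z w := h.comm z (Subgroup.mem_inf.mp hz).1 w (Subgroup.mem_inf.mp hw).1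
        have c5 : Commute z y := h.comm z (Subgroup.mem_inf.mp hz).1 y (Subgroup.mem_inf.mp hy).1
        have c6 : Commute w y := h.comm w (Subgroup.mem_inf.mp hw).1 y (Subgroup.mem_inf.mp hy).1
        refine ⟨z * w * y, mul_mem (mul_mem hz hw) hy, ?_, a * b, mul_mem ha hb, habp, ?_⟩
        · rw [(c5.mul_left c6).mul_pow, c4.mul_pow, hzp, hwp, hyp]; simp
        · have h1 := (h.v_cent hw ha).eq
          calc z * ⁅a, x⁆ * (w * ⁅b, x⁆) = z * (⁅a, x⁆ * w) * ⁅b, x⁆ := by simp only [mul_assoc]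
            _ = z * w * (⁅a, x⁆ * ⁅b, x⁆) := by rw [h1]; simp only [mul_assoc]
            _ = z * w * y * ⁅a * b, x⁆ := by rw [hy']; simp only [mul_assoc]
      inv_mem' := by
        rintro _ ⟨z, hz, hzp, a, ha, hap, rfl⟩
        obtain ⟨y, hy, hy'⟩ := h.v_inv ha
        have hap' : a⁻¹ ^ p = 1 := by rw [inv_pow, hap, inv_one]
        have hyp : y ^ p = 1 := by
          have h1 : y = ⁅a, x⁆⁻¹ * ⁅a⁻¹, x⁆⁻¹ := by rw [hy', mul_inv_cancel_right]
          have c1 : Commute ⁅a, x⁆ ⁅a⁻¹, x⁆ := h.v_comm ha (inv_mem ha)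
          rw [h1, c1.inv_left.inv_right.mul_pow, inv_pow, inv_pow, h.v_pow ha hp hap, h.v_pow (inv_mem ha) hp hap']
          simp
        have c4 : Commute y z⁻¹ := h.comm y (Subgroup.mem_inf.mp hy).1 z⁻¹ (inv_mem (Subgroup.mem_inf.mp hz).1)
        refine ⟨y * z⁻¹, mul_mem hy (inv_mem hz), ?_, a⁻¹, inv_mem ha, hap', ?_⟩
        · rw [c4.mul_pow, hyp, inv_pow, hzp]; simp
        · have h1 := (h.v_cent (inv_mem hz) (inv_mem ha)).eq
          rw [mul_inv_rev, hy', mul_assoc, h1, mul_assoc] }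
  have hKA : K ≤ A := fun a ha => ha.1
  have hEstar : E ≤ omeS (aStar A x) p h.aStar_comm := by
    rintro _ ⟨z, hz, hzp, a, ha, hap, rfl⟩
    refine ⟨h.mem_aStar.mpr ⟨z, hz, a, ha, rfl⟩, ?_⟩
    rw [(h.v_cent hz ha).symm.mul_pow, hzp, h.v_pow ha hp hap, one_mul]
  refine le_trans ?_ (Subgroup.card_le_of_le hEstar)
  -- normalization of `K`
  have hNK : Subgroup.normalizer (A : Set G) ≤ Subgroup.normalizer (K : Set G) := by
    intro n hn
    apply mem_normalizer_of_cj_le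
    rintro _ ⟨k, ⟨hk1, hk2⟩, rfl⟩
    refine ⟨(Subgroup.mem_normalizer_iff.mp hn _).mp hk1, ?_⟩
    change (n * k * n⁻¹) ^ p = 1
    rw [conj_pow, hk2]; group
  have hEN : E ≤ Subgroup.normalizer (K : Set G) := by
    intro g hg
    exact hNK (h.aStar_le_normalizer (hEstar hg).1)
  have hK'N : cj x K ≤ Subgroup.normalizer (K : Set G) := (cj_mono hKA).trans (h.n1.trans hNK)
  have h1 := CfsgH1.card_sup_mul_card_inf hEN
  have h2 := CfsgH1.card_sup_mul_card_inf hK'N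
  have h3 : E ⊔ K = cj x K ⊔ K := by
    apply le_antisymm
    · refine sup_le ?_ le_sup_right
      rintro _ ⟨z, hz, hzp, a, ha, hap, rfl⟩
      refine mul_mem (Subgroup.mem_sup_right ⟨(Subgroup.mem_inf.mp hz).1, hzp⟩) ?_
      rw [v_eq]
      exact mul_mem (Subgroup.mem_sup_right ⟨ha, hap⟩) (inv_mem (Subgroup.mem_sup_left ⟨a, ⟨ha, hap⟩, rfl⟩))
    · refine sup_le ?_ le_sup_right
      rintro _ ⟨a, ⟨ha, hap⟩, rfl⟩
      have h4 : ⁅a, x⁆ ∈ E := ⟨1, one_mem _, one_pow _, a, ha, hap, by rw [one_mul]⟩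
      have h5 : ⁅a, x⁆⁻¹ * a ∈ E ⊔ K := mul_mem (inv_mem (Subgroup.mem_sup_left h4)) (Subgroup.mem_sup_right ⟨ha, hap⟩)
      have e : ⁅a, x⁆⁻¹ * a = (MulAut.conj x).toMonoidHom a := by
        rw [v_eq]; change _ = x * a * x⁻¹; group
      rwa [e] at h5
  have h4 : E ⊓ K = cj x K ⊓ K := by
    apply le_antisymm
    · intro g hg
      obtain ⟨hgE, hgA, hgp⟩ := Subgroup.mem_inf.mp hg
      have h5 : g ∈ aStar A x ⊓ A := Subgroup.mem_inf.mpr ⟨(hEstar hgE).1, hgA⟩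
      rw [h.inf_eq] at h5
      obtain ⟨-, y, hy, hyg⟩ := Subgroup.mem_inf.mp h5
      refine Subgroup.mem_inf.mpr ⟨⟨y, ⟨hy, ?_⟩, hyg⟩, hgA, hgp⟩
      have h6 : y = x⁻¹ * g * x := by
        have : x * y * x⁻¹ = g := hyg
        rw [← this]; group
      rw [h6]
      have h7 : (x⁻¹ * g * x) ^ p = x⁻¹ * g ^ p * x := by
        have := conj_pow (a := x⁻¹) (b := g) (i := p)
        rw [inv_inv] at this
        exact this
      rw [h7, hgp]; group
    · intro g hg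
      obtain ⟨⟨y, ⟨hy1, hy2⟩, hyg⟩, hgA, hgp⟩ := Subgroup.mem_inf.mp hg
      refine Subgroup.mem_inf.mpr ⟨⟨g, Subgroup.mem_inf.mpr ⟨hgA, ⟨y, hy1, hyg⟩⟩, hgp, 1, one_mem _, one_pow _, ?_⟩, hgA, hgp⟩
      rw [commutatorElement_one_left, mul_one]
  rw [h3, h4, h2, card_cj] at h1
  exact (Nat.eq_of_mul_eq_mul_right Nat.card_pos h1).le

end CfsgH7
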