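import Cfsg.Agent.H7.DFus3
import Cfsg.Agent.H8.CritS4
import Cfsg.Agent.H2.CopGen

set_option autoImplicit false

/-! Offenders in `S₄`-free groups: the case of an `r`-group. -/

namespace CfsgH7

open Subgroup Cfsg
open scoped commutatorElement

universe u

theorem relIndex_comap_mk {G : Type*} [Group G] (C : Subgroup G) [C.Normal] (Kb : Subgroup (G ⧸ C)) :
    C.relIndex (Kb.comap (QuotientGroup.mk' C)) = Nat.card ↥Kb := by
  have h := Subgroup.relIndex_ker (Kb.comap (QuotientGroup.mk' C)) (QuotientGroup.mk' C)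
  rw [QuotientGroup.ker_mk', Subgroup.map_comap_eq_self_of_surjective (QuotientGroup.mk'_surjective C)] at h
  exact h

set_option maxHeartbeats 1000000 in
theorem off_rgroup {G : Type u} [Group G] [Finite G] {r : ℕ} [hr : Fact r.Prime] (hr2 : r ≠ 2) (hG : ¬ Involves ↥(qd 2) G)
    {V F A : Subgroup G} (hVn : V.Normal) (hFn : F.Normal) (hVc : ∀ x ∈ V, ∀ y ∈ V, x * y = y * x) (hV2 : ∀ v ∈ V, v ^ 2 = 1)
    (hFr : ∀ f ∈ F, ∃ n, f ^ r ^ n ∈ Subgroup.centralizer (V : Set G))
    (hA2 : ∀ a ∈ A, a ^ 2 = 1) (hAc : ∀ a ∈ A, ∀ b ∈ A, a * b = b * a)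
    (hfaith : ∀ a ∈ A, (∀ k ∈ F, a * k * a⁻¹ * k⁻¹ ∈ Subgroup.centralizer (V : Set G)) → a ∈ Subgroup.centralizer (V : Set G))
    (hne : ¬ A ≤ Subgroup.centralizer (V : Set G)) :
    Nat.card ↥A * Nat.card ↥(V ⊓ Subgroup.centralizer (A : Set G) : Subgroup G) <
      Nat.card ↥(A ⊓ Subgroup.centralizer (V : Set G) : Subgroup G) * Nat.card ↥V := by
  classical
  have hCn : (Subgroup.centralizer (V : Set G)).Normal := inferInstance
  set C := Subgroup.centralizer (V : Set G) with hC
  let f : G →* G ⧸ C := QuotientGroup.mk' C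
  have hf : Function.Surjective f := QuotientGroup.mk'_surjective C
  have hker : f.ker = C := QuotientGroup.ker_mk' C
  have hfC : ∀ x : G, f x = 1 ↔ x ∈ C := fun x => by rw [← MonoidHom.mem_ker, hker]
  have hrc : Nat.Coprime 2 r := (Nat.coprime_primes Nat.prime_two hr.out).mpr (Ne.symm hr2)
  set Fb := F.map f with hFb
  have hFbn : Fb.Normal := hFn.map f hf
  have hFbr : IsPGroup r ↥Fb := by
    rintro ⟨_, x, hx, rfl⟩
    obtain ⟨n, hn⟩ := hFr x hx
    refine ⟨n, Subtype.ext ?_⟩
    change f x ^ r ^ n = 1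
    rw [← map_pow, hfC]; exact hn
  have hrel : ∀ y ∈ Fb, y = y⁻¹ → y = 1 := by
    intro y hy h
    obtain ⟨n, hn⟩ := isPGroup_pow_mem hFbr hy
    have h2 : y ^ 2 = 1 := by rw [pow_two]; nth_rewrite 1 [h]; exact inv_mul_cancel y
    rw [← orderOf_eq_one_iff]
    exact Nat.eq_one_of_dvd_coprimes (Nat.Coprime.pow_right n hrc) (orderOf_dvd_of_pow_eq_one h2) (orderOf_dvd_of_pow_eq_one hn)
  set Ab := A.map f with hAb
  have hAb2 : ∀ a ∈ Ab, a ^ 2 = 1 := by
    rintro _ ⟨a, ha, rfl⟩
    rw [← map_pow, hA2 a ha, map_one]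
  have hAbc : ∀ a ∈ Ab, ∀ b ∈ Ab, a * b = b * a := by
    rintro _ ⟨a, ha, rfl⟩ _ ⟨b, hb, rfl⟩
    rw [← map_mul, hAc a ha b hb, map_mul]
  -- a maximal invariant abelian subgroup
  let 𝒦 : Set (Subgroup (G ⧸ C)) := {K | K ≤ Fb ∧ Ab ≤ Subgroup.normalizer (K : Set (G ⧸ C)) ∧ ∀ x ∈ K, ∀ y ∈ K, x * y = y * x}
  obtain ⟨Kb, ⟨hKF, hAK, hKc⟩, hKmax⟩ := Set.exists_max_image 𝒦 (fun K => Nat.card ↥K) (Set.toFinite _)
    ⟨⊥, bot_le, by rw [Subgroup.normalizer_eq_top]; exact le_top, by
      intro x hx y hy; rw [Subgroup.mem_bot] at hx hy; rw [hx, hy]⟩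
  have hcardFb : ∀ D : Subgroup (G ⧸ C), D ≤ Fb → (Nat.card ↥D).Coprime 2 := by
    intro D hD
    obtain ⟨n, hn⟩ := IsPGroup.iff_card.mp (hFbr.to_le hD)
    rw [hn]
    exact (Nat.Coprime.pow_right n hrc).symm
  have hfaithK : ∀ a ∈ A, (∀ k ∈ Kb, f a * k = k * f a) → a ∈ C := by
    intro a ha haK
    set ab := f a with hab
    have habA : ab ∈ Ab := ⟨a, ha, rfl⟩
    set D := Fb ⊓ Subgroup.centralizer (Kb : Set (G ⧸ C)) with hD
    have hAD : Ab ≤ Subgroup.normalizer (D : Set (G ⧸ C)) := by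
      intro x hx
      rw [mem_normalizer_iff_cj, hD, cj_inf, ← centralizer_cj, cj_of_mem_normalizer (hAK hx), cj_of_normal]
    have hDab : D ≤ Subgroup.centralizer ({ab} : Set (G ⧸ C)) := by
      refine CfsgH2.coprime_gen_hyperplane Nat.prime_two hAb2 hAbc hAD (hcardFb D inf_le_left) ?_
      intro B hB hBi
      by_contra hcon
      obtain ⟨y0, hy0, hy0'⟩ := SetLike.not_le_iff_exists.mp hcon
      obtain ⟨hy0D, hy0B⟩ := Subgroup.mem_inf.mp hy0
      rw [Subgroup.mem_centralizer_singleton_iff] at hy0'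
      have habB : ab ∉ B := fun h => hy0' (Subgroup.mem_centralizer_iff.mp hy0B ab h).symm
      have hab2 : ab * ab = 1 := by rw [← pow_two]; exact hAb2 ab habA
      have habinv : ab⁻¹ = ab := inv_eq_of_mul_eq_one_left hab2
      set y1 := y0⁻¹ * (ab * y0 * ab⁻¹) with hy1
      have hy1D : y1 ∈ D := mul_mem (inv_mem hy0D) ((Subgroup.mem_normalizer_iff.mp (hAD habA) y0).mp hy0D)
      have hy1ne : y1 ≠ 1 := by
        intro h
        apply hy0'
        rw [hy1, inv_mul_eq_one] at h
        rw [h]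
        calc ab * y0 * ab⁻¹ * ab = ab * y0 := by group
          _ = ab * (ab * y0 * ab⁻¹) := by rw [← h]
      have hy1inv : ab * y1 * ab⁻¹ = y1⁻¹ := by
        calc ab * y1 * ab⁻¹ = (ab * y0 * ab⁻¹)⁻¹ * ((ab * ab) * y0 * (ab * ab)⁻¹) := by rw [hy1]; group
          _ = (ab * y0 * ab⁻¹)⁻¹ * y0 := by rw [hab2]; group
          _ = y1⁻¹ := by rw [hy1]; group
      have hy1B : ∀ b ∈ B, b * y1 * b⁻¹ = y1 := by
        intro b hb
        have e1 : b * y0 = y0 * b := Subgroup.mem_centralizer_iff.mp hy0B b hb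
        have e2 : b * ab = ab * b := hAbc b (hB hb) ab habA
        have e3 : b * y0 * b⁻¹ = y0 := by rw [e1]; group
        have e4 : b * ab * b⁻¹ = ab := by rw [e2]; group
        calc b * y1 * b⁻¹ = (b * y0 * b⁻¹)⁻¹ * ((b * ab * b⁻¹) * (b * y0 * b⁻¹) * (b * ab * b⁻¹)⁻¹) := by rw [hy1]; group
          _ = y1 := by rw [e3, e4]
      have hAy1 : ∀ c ∈ Ab, c * y1 * c⁻¹ = y1 ∨ c * y1 * c⁻¹ = y1⁻¹ := by
        intro c hc
        by_cases hcB : c ∈ B
        · left; exact hy1B c hcB
        · right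
          have hidx : (B.subgroupOf Ab).index = 2 := by
            have h1 : B.relIndex Ab ≠ 0 := Subgroup.index_ne_zero_of_finite (H := B.subgroupOf Ab)
            have h2 : B.relIndex Ab ≠ 1 := by
              intro h
              rw [Subgroup.relIndex_eq_one] at h
              exact habB (h habA)
            change B.relIndex Ab = 2
            omega
          have h3 := (Subgroup.mul_mem_iff_of_index_two hidx (a := ⟨c, hc⟩) (b := ⟨ab, habA⟩)).mpr (by
            constructor
            · intro h; exact absurd h hcB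
            · intro h; exact absurd h habB)
          have h4 : c * ab ∈ B := h3
          have h5 := hy1B _ h4
          have h6 : c * y1⁻¹ * c⁻¹ = y1 := by
            rw [← hy1inv, ← h5]
            have : c * ab * y1 * (c * ab)⁻¹ = y1 := h5
            rw [this]
            calc c * (ab * y1 * ab⁻¹) * c⁻¹ = c * ab * y1 * (c * ab)⁻¹ := by group
              _ = y1 := h5
          calc c * y1 * c⁻¹ = (c * y1⁻¹ * c⁻¹)⁻¹ := by group
            _ = y1⁻¹ := by rw [h6]
      -- the larger subgroup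
      have hy1K : ∀ k ∈ Kb, k * y1 = y1 * k := fun k hk => Subgroup.mem_centralizer_iff.mp (Subgroup.mem_inf.mp hy1D).2 k hk
      have hnew : Kb ⊔ Subgroup.zpowers y1 ∈ 𝒦 := by
        refine ⟨sup_le hKF (Subgroup.zpowers_le.mpr (Subgroup.mem_inf.mp hy1D).1), ?_, ?_⟩
        · intro c hc
          apply mem_normalizer_of_cj_le
          rw [cj_sup, cj_of_mem_normalizer (hAK hc)]
          refine sup_le le_sup_left ?_
          rw [cj, MonoidHom.map_zpowers, Subgroup.zpowers_le]
          change c * y1 * c⁻¹ ∈ _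
          rcases hAy1 c hc with h | h
          · rw [h]; exact Subgroup.mem_sup_right (Subgroup.mem_zpowers y1)
          · rw [h]; exact Subgroup.mem_sup_right (inv_mem (Subgroup.mem_zpowers y1))
        · exact comm_sup_zpowers hKc hy1K
      have hle := hKmax _ hnew
      have h7 : Kb = Kb ⊔ Subgroup.zpowers y1 := Subgroup.eq_of_le_of_card_ge le_sup_left hle
      have h8 : y1 ∈ Kb := by rw [h7]; exact Subgroup.mem_sup_right (Subgroup.mem_zpowers y1)
      apply hy1ne
      refine hrel y1 (hKF h8) ?_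
      rw [← hy1inv, haK y1 h8]; group
    have hz : ∀ x ∈ Subgroup.zpowers ab, ∀ y : G ⧸ C, ab * y = y * ab → x * y = y * x := by
      rintro _ ⟨n, rfl⟩ y hy
      exact (show Commute ab y from hy).zpow_left n
    have hcardab : (Nat.card ↥(Subgroup.zpowers ab)).Coprime r := by
      rw [Nat.card_zpowers]
      exact Nat.Coprime.coprime_dvd_left (orderOf_dvd_of_pow_eq_one (hAb2 ab habA)) hrc
    have hfin := CfsgH2.thompson_axb (p := r) (A := Subgroup.zpowers ab) (B := Kb) (hFbr.to_le hKF) hcardab (by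
        rw [Subgroup.commutator_eq_bot_iff_le_centralizer]
        intro x hx
        rw [Subgroup.mem_centralizer_iff]
        intro k hk
        exact (hz x hx k (haK k hk)).symm) Fb hFbr (by rw [Subgroup.normalizer_eq_top]; exact le_top)
      (by rw [Subgroup.normalizer_eq_top]; exact le_top) (by
        rw [Subgroup.commutator_eq_bot_iff_le_centralizer]
        intro y hy
        rw [Subgroup.mem_centralizer_iff]
        intro x hx
        exact hz x hx y (Subgroup.mem_centralizer_singleton_iff.mp (hDab hy)).symm)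
    rw [Subgroup.commutator_eq_bot_iff_le_centralizer] at hfin
    refine hfaith a ha fun k hk => ?_
    have h1 : ab * f k = f k * ab := Subgroup.mem_centralizer_iff.mp (hfin ⟨k, hk, rfl⟩) ab (Subgroup.mem_zpowers ab)
    rw [← hfC, map_mul, map_mul, map_mul, map_inv, map_inv]
    change ab * f k * ab⁻¹ * (f k)⁻¹ = 1
    rw [h1]; group
  -- back in `G`
  set K := Kb.comap f with hK
  have hCK : C ≤ K := by
    intro x hx
    change f x ∈ Kb
    rw [(hfC x).mpr hx]; exact one_mem _
  set N := Subgroup.normalizer (K : Set G) with hN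
  have hVC : V ≤ C := by
    intro v hv
    rw [hC, Subgroup.mem_centralizer_iff]
    intro w hw
    exact hVc w hw v hv
  have hKN : K ≤ N := Subgroup.le_normalizer
  have hVN : V ≤ N := hVC.trans (hCK.trans hKN)
  have hCN : C ≤ N := hCK.trans hKN
  have hAN : A ≤ N := by
    intro a ha
    rw [hN, hK, ← Subgroup.comap_normalizer_eq_of_surjective _ hf]
    exact hAK ⟨a, ha, rfl⟩
  have hcent : ∀ X : Subgroup G, X ≤ N → Subgroup.centralizer ((X.subgroupOf N : Subgroup ↥N) : Set ↥N) = (Subgroup.centralizer (X : Set G)).subgroupOf N := by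
    intro X hX
    ext y
    rw [Subgroup.mem_centralizer_iff, Subgroup.mem_subgroupOf, Subgroup.mem_centralizer_iff]
    constructor
    · intro h x hx
      exact congrArg Subtype.val (h ⟨x, hX hx⟩ hx)
    · intro h x hx
      exact Subtype.ext (h x hx)
  have hidxK : C.relIndex K = Nat.card ↥Kb := relIndex_comap_mk C Kb
  have hcard : ∀ X : Subgroup G, X ≤ N → Nat.card ↥(X.subgroupOf N) = Nat.card ↥X := fun X hX =>
    Nat.card_congr (Subgroup.subgroupOfEquivOfLe hX).toEquiv
  have hmain := CfsgH8.Qd.crit_s4 (G := ↥N) (fun h => hG (Involves.trans' h (involves_subgroup N)))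
    (V.subgroupOf N) (K.subgroupOf N) (A.subgroupOf N) (Subgroup.normal_subgroupOf_of_le_normalizer (by
      rw [Subgroup.normalizer_eq_top]; exact le_top)) (Subgroup.normal_subgroupOf_of_le_normalizer le_rfl)
    (fun x hx y hy => Subtype.ext (hVc x hx y hy)) (fun v hv => Subtype.ext (hV2 v hv))
    (by
      intro x hx y hy
      rw [hcent V hVN, Subgroup.mem_subgroupOf]
      change (x : G) * y * (x : G)⁻¹ * (y : G)⁻¹ ∈ C
      rw [← hfC, map_mul, map_mul, map_mul, map_inv, map_inv, hKc (f x) hx (f y) hy]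
      group)
    (by
      rw [hcent V hVN]
      have h1 : ((Subgroup.centralizer (V : Set G)).subgroupOf N).relIndex (K.subgroupOf N) = C.relIndex K := by
        rw [← Subgroup.relIndex_map_map_of_injective _ _ N.subtype_injective,
          Subgroup.map_subgroupOf_eq_of_le hKN, Subgroup.map_subgroupOf_eq_of_le hCN]
      rw [h1, hidxK]
      exact hcardFb Kb hKF)
    (by
      intro x
      refine ⟨1, ?_⟩
      apply Subtype.ext
      apply Subtype.ext
      rw [pow_one]
      exact hA2 _ x.2)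
    (fun a ha b hb => Subtype.ext (hAc a ha b hb))
    (by
      intro a ha h
      rw [hcent V hVN, Subgroup.mem_subgroupOf]
      refine hfaithK a ha fun k hk => ?_
      obtain ⟨k', rfl⟩ := hf k
      have hk' : k' ∈ K := hk
      have h1 := h ⟨k', hKN hk'⟩ hk'
      rw [hcent V hVN, Subgroup.mem_subgroupOf] at h1
      have h2 : (a : G) * k' * (a : G)⁻¹ * k'⁻¹ ∈ C := h1
      rw [← hfC, map_mul, map_mul, map_mul, map_inv, map_inv, mul_inv_eq_one, mul_inv_eq_iff_eq_mul] at h2
      exact h2)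
    (by
      rw [hcent V hVN]
      intro h
      apply hne
      intro a ha
      exact h (show (⟨a, hAN ha⟩ : ↥N) ∈ A.subgroupOf N from ha))
  rw [hcent V hVN, hcent A hAN] at hmain
  have e1 : V.subgroupOf N ⊓ (Subgroup.centralizer (A : Set G)).subgroupOf N = (V ⊓ Subgroup.centralizer (A : Set G)).subgroupOf N := rfl
  have e2 : A.subgroupOf N ⊓ (Subgroup.centralizer (V : Set G)).subgroupOf N = (A ⊓ Subgroup.centralizer (V : Set G)).subgroupOf N := rfl
  rw [e1, e2, hcard A hAN, hcard V hVN, hcard _ (inf_le_left.trans hVN), hcard _ (inf_le_left.trans hAN)] at hmain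
  exact hmain

end CfsgH7
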