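import Cfsg.Agent.H7.S4Solv
import Cfsg.Agent.H8.QdS4
import Cfsg.Agent.H3.ThompsonNPC
import Cfsg.Agent.H1.Fit

set_option autoImplicit false

/-! Solvable `S₄`-free groups with Sylow 2-subgroup of class at most 2: S2010. -/

namespace CfsgH7

open Subgroup Cfsg CfsgH3
open scoped commutatorElement

universe u

theorem jj_normal_of_le {G : Type*} [Group G] [Finite G] {e : ℕ} {S T : Subgroup G} (hTn : T.Normal) (h1 : JJ e S ≤ T) (h2 : T ≤ S) :
    (JJ e S).Normal := by
  rw [← JJ_eq_of_le h1 h2, ← Subgroup.normalizer_eq_top_iff, eq_top_iff]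
  intro g _
  rw [mem_normalizer_iff_cj]
  have h3 := JJ_map (e := e) (MulAut.conj g).toMonoidHom T (MulAut.conj g).injective.injOn
  change cj g (JJ e T) = JJ e T
  unfold cj
  rw [← h3]
  congr 1
  exact cj_of_normal g T

/-- maximality of members of `𝒜(S)` against `V` -/
theorem maxGood_bound {G : Type*} [Group G] [Finite G] {e : ℕ} {S A V : Subgroup G} (hA : MaxGood e S A) (hVn : V.Normal)
    (hVS : V ≤ S) (hVc : ∀ x ∈ V, ∀ y ∈ V, x * y = y * x) (hVe : ∀ v ∈ V, v ^ e = 1) :
    Nat.card ↥(A ⊓ Subgroup.centralizer (V : Set G) : Subgroup G) * Nat.card ↥V ≤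
      Nat.card ↥A * Nat.card ↥(V ⊓ Subgroup.centralizer (A : Set G) : Subgroup G) := by
  obtain ⟨hAS, ⟨hAc, hAe⟩, hmax⟩ := hA
  set X := A ⊓ Subgroup.centralizer (V : Set G) with hX
  have hXV : ∀ x ∈ X, ∀ v ∈ V, x * v = v * x := fun x hx v hv =>
    (Subgroup.mem_centralizer_iff.mp (Subgroup.mem_inf.mp hx).2 v hv).symm
  have hgood : Good e (X ⊔ V) := by
    constructor
    · intro a ha b hb
      obtain ⟨x, hx, v, hv, rfl⟩ := Subgroup.mem_sup_of_normal_right.mp ha
      obtain ⟨y, hy, w, hw, rfl⟩ := Subgroup.mem_sup_of_normal_right.mp hb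
      have e1 := hXV y hy v hv
      have e2 := hXV x hx w hw
      have e3 := hAc x (Subgroup.mem_inf.mp hx).1 y (Subgroup.mem_inf.mp hy).1
      have e4 := hVc v hv w hw
      calc x * v * (y * w) = x * (v * y) * w := by group
        _ = x * (y * v) * w := by rw [e1]
        _ = (x * y) * (v * w) := by group
        _ = (y * x) * (w * v) := by rw [e3, e4]
        _ = y * (x * w) * v := by group
        _ = y * (w * x) * v := by rw [e2]
        _ = y * w * (x * v) := by group
    · intro a ha
      obtain ⟨x, hx, v, hv, rfl⟩ := Subgroup.mem_sup_of_normal_right.mp ha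
      rw [(show Commute x v from hXV x hx v hv).mul_pow, hAe x (Subgroup.mem_inf.mp hx).1, hVe v hv, one_mul]
  have h1 := hmax (X ⊔ V) (sup_le (inf_le_left.trans hAS) hVS) hgood
  have h2 : Nat.card ↥(X ⊓ V : Subgroup G) ≤ Nat.card ↥(V ⊓ Subgroup.centralizer (A : Set G) : Subgroup G) := by
    refine Subgroup.card_le_of_le (le_inf inf_le_right ?_)
    intro z hz
    rw [Subgroup.mem_centralizer_iff]
    intro a ha
    exact hAc a ha z (Subgroup.mem_inf.mp (Subgroup.mem_inf.mp hz).1).1
  have h3 : Nat.card ↥X * Nat.card ↥V = Nat.card ↥(X ⊔ V : Subgroup G) * Nat.card ↥(X ⊓ V : Subgroup G) :=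
    (CfsgH1.card_sup_mul_card_inf (by rw [Subgroup.normalizer_eq_top]; exact le_top)).symm
  rw [h3]
  exact Nat.mul_le_mul h1 h2

theorem comm_of_class_two {G : Type*} [Group G] {S : Subgroup G} (hcl : ⁅⁅S, S⁆, S⁆ = ⊥) {a s : G} (ha : a ∈ S) (hs : s ∈ S)
    (ha2 : a ^ 2 = 1) : ⁅a, s⁆ ∈ S ∧ ⁅a, s⁆ ^ 2 = 1 ∧ ∀ x ∈ S, x * ⁅a, s⁆ = ⁅a, s⁆ * x := by
  have h1 : ⁅a, s⁆ ∈ ⁅S, S⁆ := Subgroup.commutator_mem_commutator ha hs
  have h2 : ∀ x ∈ S, x * ⁅a, s⁆ = ⁅a, s⁆ * x := by
    rw [Subgroup.commutator_eq_bot_iff_le_centralizer] at hcl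
    intro x hx
    exact Subgroup.mem_centralizer_iff.mp (hcl h1) x hx
  refine ⟨Subgroup.commutator_le_self S h1, ?_, h2⟩
  have h3 : a * s = ⁅a, s⁆ * (s * a) := by rw [commutatorElement_def]; group
  have h4 : a * (a * s) = ⁅a, s⁆ ^ 2 * (s * (a * a)) := by
    calc a * (a * s) = a * (⁅a, s⁆ * (s * a)) := by rw [← h3]
      _ = (a * ⁅a, s⁆) * (s * a) := by group
      _ = (⁅a, s⁆ * a) * (s * a) := by rw [h2 a ha]
      _ = ⁅a, s⁆ * (a * s) * a := by group
      _ = ⁅a, s⁆ * (⁅a, s⁆ * (s * a)) * a := by rw [← h3]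
      _ = _ := by rw [pow_two]; group
  have h5 : a * a = 1 := by rw [← pow_two]; exact ha2
  rw [h5, mul_one, ← mul_assoc, h5, one_mul] at h4
  exact (mul_eq_right.mp h4.symm)

/-- in a solvable group with trivial `O_2`, a `2`-element centralizing all the cores is trivial -/
theorem eq_one_of_centralizes_cores {Q : Type*} [Group Q] [Finite Q] (hsol : Group.IsSolvable Q) {p : ℕ} [hp : Fact p.Prime]
    (hcore : pCore p Q = ⊥) {j : Q} {k : ℕ} (hj : j ^ p ^ k = 1)
    (h : ∀ (r : ℕ) [Fact r.Prime], j ∈ Subgroup.centralizer ((pCore r Q : Subgroup Q) : Set Q)) : j = 1 := by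
  set F := fittingSubgroup Q with hF
  have hjC : j ∈ Subgroup.centralizer (F : Set Q) := by
    have h2 : F ≤ Subgroup.centralizer ({j} : Set Q) := by
      rw [hF, CfsgH2.fittingSubgroup_eq_iSup_pCore]
      refine iSup_le fun r => ?_
      haveI : Fact (r : ℕ).Prime := ⟨Nat.prime_of_mem_primeFactors r.2⟩
      intro x hx
      rw [Subgroup.mem_centralizer_iff]
      intro y hy
      rw [Set.mem_singleton_iff] at hy
      rw [hy]
      exact (Subgroup.mem_centralizer_iff.mp (h r) x hx).symm
    rw [Subgroup.mem_centralizer_iff]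
    intro x hx
    exact (Subgroup.mem_centralizer_iff.mp (h2 hx) j rfl).symm
  have hjF : j ∈ F := CfsgH1.centralizer_fitting_le hjC
  have hFn : F.Normal := inferInstance
  let N : Subgroup Q :=
    { carrier := {z | z ∈ F ∧ z ∈ Subgroup.centralizer (F : Set Q) ∧ ∃ n, z ^ p ^ n = 1}
      one_mem' := ⟨one_mem _, one_mem _, 0, one_pow _⟩
      mul_mem' := by
        rintro x y ⟨hx1, hx2, n, hn⟩ ⟨hy1, hy2, m, hm⟩
        refine ⟨mul_mem hx1 hy1, mul_mem hx2 hy2, n + m, ?_⟩
        have hc : Commute x y := (Subgroup.mem_centralizer_iff.mp hy2 x hx1)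
        rw [hc.mul_pow, pow_add, pow_mul, hn, one_pow, mul_comm, pow_mul, hm, one_pow, one_mul]
      inv_mem' := by
        rintro x ⟨hx1, hx2, n, hn⟩
        exact ⟨inv_mem hx1, inv_mem hx2, n, by rw [inv_pow, hn, inv_one]⟩ }
  have hNn : N.Normal := by
    refine ⟨?_⟩
    rintro x ⟨hx1, hx2, n, hn⟩ g
    have hCn : (Subgroup.centralizer (F : Set Q)).Normal := inferInstance
    exact ⟨hFn.conj_mem x hx1 g, hCn.conj_mem x hx2 g, n, by rw [conj_pow, hn]; group⟩
  have hNp : IsPGroup p ↥N := by
    rintro ⟨x, hx1, hx2, n, hn⟩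
    exact ⟨n, Subtype.ext hn⟩
  have h3 : N ≤ pCore p Q := CfsgH2.le_pCore hNn hNp
  rw [hcore] at h3
  exact Subgroup.mem_bot.mp (h3 ⟨hjF, hjC, k, hj⟩)

/-- if `Q = O_r(Q) T` with `T` a `p`-group and `O_p(Q) = 1` then `C(O_r(Q)) ≤ O_r(Q)`. -/
theorem centralizer_pCore_le_of_sup {Q : Type*} [Group Q] [Finite Q] (hsol : Group.IsSolvable Q) {p r : ℕ} [hp : Fact p.Prime]
    [hr : Fact r.Prime] (hcore : pCore p Q = ⊥) {P : Subgroup Q} (hP : IsPGroup p ↥P) (htop : pCore r Q ⊔ P = ⊤) :
    Subgroup.centralizer ((pCore r Q : Subgroup Q) : Set Q) ≤ pCore r Q := by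
  apply CfsgH1.centralizer_pCore_le_of_solvable
  have hrn := pCore_normal' r Q
  have hnp := pPrimeCore_normal' r Q
  have hc : (Nat.card ↥(pPrimeCore r Q)).Coprime r := CfsgH2.coprime_card_pPrimeCore r
  have h1 : Nat.card Q ∣ Nat.card ↥(pCore r Q) * Nat.card ↥P := by
    have h2 := CfsgH1.card_sup_mul_card_inf (H := P) (K := pCore r Q) (by rw [Subgroup.normalizer_eq_top]; exact le_top)
    rw [sup_comm, htop, Subgroup.card_top] at h2
    rw [mul_comm, ← h2]
    exact dvd_mul_right _ _
  obtain ⟨a, ha⟩ := IsPGroup.iff_card.mp (CfsgH2.isPGroup_pCore (G := Q) r)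
  obtain ⟨b, hb⟩ := IsPGroup.iff_card.mp hP
  have h2 : Nat.card ↥(pPrimeCore r Q) ∣ p ^ b := by
    have h3 : Nat.card ↥(pPrimeCore r Q) ∣ r ^ a * p ^ b := by
      rw [← ha, ← hb]
      exact (Subgroup.card_subgroup_dvd_card _).trans h1
    exact (hc.pow_right a).dvd_of_dvd_mul_left h3
  obtain ⟨m, -, hm⟩ := (Nat.dvd_prime_pow hp.out).mp h2
  have h4 := CfsgH2.le_pCore hnp (IsPGroup.iff_card.mpr ⟨m, hm⟩)
  rwa [hcore, le_bot_iff] at h4


set_option maxHeartbeats 1000000 in
/-- The Thompson subgroup is normal modulo `O(G)` for solvable `S₄`-free groups with Sylow `2`-subgroup of class at most two. -/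
theorem s4_solv (n : ℕ) : ∀ (G : Type u) [Group G] [Finite G], Nat.card G = n → Group.IsSolvable G → ¬ Involves ↥(qd 2) G →
    ∀ S : Subgroup G, IsSyl 2 S ⊤ → ⁅⁅S, S⁆, S⁆ = ⊥ →
      Subgroup.normalizer (JJ 2 S : Set G) ⊔ pPrimeCore 2 G = ⊤ := by
  haveI : Fact (Nat.Prime 2) := ⟨Nat.prime_two⟩
  induction n using Nat.strong_induction_on with
  | _ n ih =>
  intro G _ _ hcard hsol hqd S hS hcl
  have hSp := hS.isPGroup
  by_cases hp' : pPrimeCore 2 G = ⊥
  swap
  · -- quotient
    have hnp := pPrimeCore_normal' 2 G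
    set N := pPrimeCore 2 G with hN
    have hNc : (Nat.card ↥N).Coprime 2 := CfsgH2.coprime_card_pPrimeCore 2
    let f : G →* G ⧸ N := QuotientGroup.mk' N
    have hf : Function.Surjective f := QuotientGroup.mk'_surjective N
    have hker : f.ker = N := QuotientGroup.ker_mk' N
    have hinj : Set.InjOn f (S : Set G) := by
      intro x hx y hy hxy
      have h2 : x⁻¹ * y ∈ N := by
        rw [← hker, MonoidHom.mem_ker, map_mul, map_inv, hxy, inv_mul_cancel]
      exact inv_mul_eq_one.mp (coprime_of_isPGroup_of_mem hSp hNc (mul_mem (inv_mem hx) hy) h2)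
    have hlt : Nat.card (G ⧸ N) < n := by
      rw [← hcard, Subgroup.card_eq_card_quotient_mul_card_subgroup N]
      have h1 : 1 < Nat.card ↥N := (Subgroup.one_lt_card_iff_ne_bot N).mpr hp'
      have h2 : 0 < Nat.card (G ⧸ N) := Nat.card_pos
      nlinarith
    have hsolq : Group.IsSolvable (G ⧸ N) := inferInstance
    have h1 := ih _ hlt (G ⧸ N) rfl hsolq (fun h => hqd (Involves.trans' h (involves_quotient N))) (S.map f) (hS.map_top f hf)
      (by rw [← Subgroup.map_commutator, ← Subgroup.map_commutator, hcl, Subgroup.map_bot])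
    rw [CfsgH2.pPrimeCore_quotient_pPrimeCore, sup_bot_eq, JJ_map f S hinj,
      normalizer_map_coprime hf (by rw [hker]; exact hNc) (hSp.to_le (JJ_le S))] at h1
    rw [eq_top_iff]
    intro g _
    have h2 : f g ∈ (Subgroup.normalizer (JJ 2 S : Set G)).map f := by rw [h1]; trivial
    obtain ⟨y, hy, hyg⟩ := h2
    have h3 : y⁻¹ * g ∈ N := by rw [← hker, MonoidHom.mem_ker, map_mul, map_inv, hyg, inv_mul_cancel]
    have h4 := mul_mem (Subgroup.mem_sup_left (T := N) hy) (Subgroup.mem_sup_right (S := Subgroup.normalizer (JJ 2 S : Set G)) h3)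
    rwa [mul_inv_cancel_left] at h4
  · rw [hp', sup_bot_eq]
    have hTn := pCore_normal' 2 G
    set T := pCore 2 G with hT
    have hTp : IsPGroup 2 ↥T := CfsgH2.isPGroup_pCore 2
    have hTS : T ≤ S := by
      obtain ⟨m, -, hm⟩ := hS.exists_conj_le hTp le_top
      rwa [cj_of_normal] at hm
    have hCT : Subgroup.centralizer (T : Set G) ≤ T := CfsgH1.centralizer_pCore_le_of_solvable hp'
    have hdone : JJ 2 S ≤ T → Subgroup.normalizer (JJ 2 S : Set G) = ⊤ := by
      intro h
      have := jj_normal_of_le hTn h hTS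
      exact Subgroup.normalizer_eq_top _
    -- proper subgroups over `S`
    have hprop : ∀ H : Subgroup G, S ≤ H → H ≠ ⊤ → H ≤ Subgroup.normalizer (JJ 2 S : Set G) := by
      intro H hSH hH
      have hlt : Nat.card ↥H < n := by
        rw [← hcard]
        exact lt_of_le_of_ne (Subgroup.card_le_card_group H) fun h => hH (Subgroup.eq_top_of_card_eq H h)
      have hsyl : IsSyl 2 (S.subgroupOf H) (⊤ : Subgroup ↥H) := by
        obtain ⟨P, hP1, -⟩ := (hS.mono hSH le_top).exists_sylow
        rw [← hP1]; exact isSyl_of_sylow P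
      have hinjH : Set.InjOn H.subtype ((S.subgroupOf H : Subgroup ↥H) : Set ↥H) := H.subtype_injective.injOn
      have hmapS : (S.subgroupOf H).map H.subtype = S := Subgroup.map_subgroupOf_eq_of_le hSH
      have h1 := ih _ hlt ↥H rfl inferInstance (fun h => hqd (Involves.trans' h (involves_subgroup H))) (S.subgroupOf H) hsyl (by
        rw [← Subgroup.map_eq_bot_iff_of_injective _ H.subtype_injective, Subgroup.map_commutator, Subgroup.map_commutator, hmapS]
        exact hcl)
      have h2 : pPrimeCore 2 ↥H = ⊥ := by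
        have hnp := pPrimeCore_normal' 2 ↥H
        rw [eq_bot_iff]
        intro x hx
        have hxC : (x : G) ∈ Subgroup.centralizer (T : Set G) := by
          rw [Subgroup.mem_centralizer_iff]
          intro t ht
          have htH : t ∈ H := hSH (hTS ht)
          have h3 : ⁅(⟨t, htH⟩ : ↥H), x⁆ ∈ pPrimeCore 2 ↥H := by
            rw [commutatorElement_def]
            exact mul_mem (hnp.conj_mem x hx _) (inv_mem hx)
          have h4 : ⁅(⟨t, htH⟩ : ↥H), x⁆ ∈ T.subgroupOf H := by
            rw [Subgroup.mem_subgroupOf]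
            change t * x * t⁻¹ * (x : G)⁻¹ ∈ T
            have h5 := hTn.conj_mem _ (inv_mem ht) x
            have h6 := mul_mem ht h5
            have e : t * ((x : G) * t⁻¹ * (x : G)⁻¹) = t * x * t⁻¹ * (x : G)⁻¹ := by group
            rwa [e] at h6
          have h7 := coprime_of_isPGroup_of_mem (hTp.comap_of_injective _ H.subtype_injective : IsPGroup 2 ↥(T.subgroupOf H))
            (CfsgH2.coprime_card_pPrimeCore 2) h4 h3
          rw [commutatorElement_eq_one_iff_mul_comm] at h7
          exact congrArg Subtype.val h7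
        have hxT : x ∈ T.subgroupOf H := hCT hxC
        exact coprime_of_isPGroup_of_mem (hTp.comap_of_injective _ H.subtype_injective : IsPGroup 2 ↥(T.subgroupOf H))
            (CfsgH2.coprime_card_pPrimeCore 2) hxT hx
      rw [h2, sup_bot_eq] at h1
      intro x hx
      have h3 : (⟨x, hx⟩ : ↥H) ∈ Subgroup.normalizer (JJ 2 (S.subgroupOf H) : Set ↥H) := by rw [h1]; trivial
      have h4 := Subgroup.le_normalizer_map H.subtype ⟨_, h3, rfl⟩
      rw [← JJ_map H.subtype _ hinjH, hmapS] at h4
      exact h4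
    -- the module
    let Z0 : Subgroup G := Subgroup.closure {z | z ∈ S ∧ z ^ 2 = 1 ∧ ∀ x ∈ S, x * z = z * x}
    let V : Subgroup G := Subgroup.normalClosure {z | z ∈ S ∧ z ^ 2 = 1 ∧ ∀ x ∈ S, x * z = z * x}
    have hVn : V.Normal := Subgroup.normalClosure_normal
    -- the elements of order 2 in the centre of `T`
    have hΩ : ∀ v ∈ V, v ∈ T ∧ v ^ 2 = 1 ∧ ∀ t ∈ T, t * v = v * t := by
      let Ω : Subgroup G :=
        { carrier := {v | v ∈ T ∧ v ^ 2 = 1 ∧ ∀ t ∈ T, t * v = v * t}
          one_mem' := ⟨one_mem _, one_pow _, fun t _ => by rw [mul_one, one_mul]⟩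
          mul_mem' := by
            rintro x y ⟨hx1, hx2, hx3⟩ ⟨hy1, hy2, hy3⟩
            refine ⟨mul_mem hx1 hy1, ?_, fun t ht => ?_⟩
            · rw [(show Commute x y from hy3 x hx1).mul_pow, hx2, hy2, one_mul]
            · rw [← mul_assoc, hx3 t ht, mul_assoc, hy3 t ht, mul_assoc]
          inv_mem' := by
            rintro x ⟨hx1, hx2, hx3⟩
            refine ⟨inv_mem hx1, by rw [inv_pow, hx2, inv_one], fun t ht => ?_⟩
            exact (show Commute t x from hx3 t ht).inv_right }
      have hΩn : Ω.Normal := by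
        refine ⟨?_⟩
        rintro x ⟨hx1, hx2, hx3⟩ g
        refine ⟨hTn.conj_mem x hx1 g, by rw [conj_pow, hx2]; group, fun t ht => ?_⟩
        have h1 := hx3 (g⁻¹ * t * g) (by
          have := hTn.conj_mem t ht g⁻¹
          rwa [inv_inv] at this)
        calc t * (g * x * g⁻¹) = g * ((g⁻¹ * t * g) * x) * g⁻¹ := by group
          _ = g * (x * (g⁻¹ * t * g)) * g⁻¹ := by rw [h1]
          _ = g * x * g⁻¹ * t := by group
      have h1 : V ≤ Ω := by
        apply Subgroup.normalClosure_le_normal
        rintro z ⟨hz1, hz2, hz3⟩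
        refine ⟨hCT ?_, hz2, fun t ht => hz3 t (hTS ht)⟩
        rw [Subgroup.mem_centralizer_iff]
        intro t ht
        exact hz3 t (hTS ht)
      intro v hv
      exact h1 hv
    have hVT : V ≤ T := fun v hv => (hΩ v hv).1
    have hVc : ∀ x ∈ V, ∀ y ∈ V, x * y = y * x := fun x hx y hy => (hΩ y hy).2.2 x (hVT hx)
    have hV2 : ∀ v ∈ V, v ^ 2 = 1 := fun v hv => (hΩ v hv).2.1
    have hCn : (Subgroup.centralizer (V : Set G)).Normal := inferInstance
    set C := Subgroup.centralizer (V : Set G) with hC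
    have hTC : T ≤ C := by
      intro t ht
      rw [hC, Subgroup.mem_centralizer_iff]
      intro v hv
      exact ((hΩ v hv).2.2 t ht).symm
    by_cases hCS : C ⊔ S = ⊤
    · -- `Ω₁(Z(S))` is central
      have hcen : ∀ z, z ∈ S → z ^ 2 = 1 → (∀ x ∈ S, x * z = z * x) → ∀ g : G, g * z = z * g := by
        intro z hz1 hz2 hz3 g
        have hzV : z ∈ V := Subgroup.subset_normalClosure ⟨hz1, hz2, hz3⟩
        have hg : g ∈ C ⊔ S := by rw [hCS]; trivial
        obtain ⟨c, hc, s, hs, rfl⟩ := Subgroup.mem_sup_of_normal_left.mp hg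
        have h1 : z * c = c * z := Subgroup.mem_centralizer_iff.mp hc z hzV
        rw [mul_assoc, hz3 s hs, ← mul_assoc, ← h1, mul_assoc]
      apply hdone
      let E : Subgroup G :=
        { carrier := {g | ∀ t ∈ T, ∃ z, z ∈ T ∧ z ^ 2 = 1 ∧ (∀ x : G, x * z = z * x) ∧ g * t * g⁻¹ = z * t}
          one_mem' := fun t ht => ⟨1, one_mem _, one_pow _, fun x => by rw [mul_one, one_mul], by group⟩
          mul_mem' := by
            intro a b ha hb t ht
            obtain ⟨z, hz1, hz2, hz3, hz4⟩ := hb t ht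
            obtain ⟨w, hw1, hw2, hw3, hw4⟩ := ha t ht
            refine ⟨z * w, mul_mem hz1 hw1, ?_, fun x => ?_, ?_⟩
            · rw [(show Commute z w from (hz3 w).symm).mul_pow, hz2, hw2, one_mul]
            · rw [← mul_assoc, hz3 x, mul_assoc, hw3 x, mul_assoc]
            · calc a * b * t * (a * b)⁻¹ = a * (b * t * b⁻¹) * a⁻¹ := by group
                _ = a * (z * t) * a⁻¹ := by rw [hz4]
                _ = (a * z) * t * a⁻¹ := by group
                _ = (z * a) * t * a⁻¹ := by rw [hz3 a]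
                _ = z * (a * t * a⁻¹) := by group
                _ = z * w * t := by rw [hw4]; group
          inv_mem' := by
            intro a ha t ht
            obtain ⟨z, hz1, hz2, hz3, hz4⟩ := ha t ht
            refine ⟨z⁻¹, inv_mem hz1, by rw [inv_pow, hz2, inv_one], fun x => (show Commute x z from hz3 x).inv_right, ?_⟩
            have h1 : a⁻¹ * (z * t) * a = t := by rw [← hz4]; group
            have h2 : z * (a⁻¹ * t * a) = t := by
              calc z * (a⁻¹ * t * a) = (z * a⁻¹) * t * a := by group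
                _ = (a⁻¹ * z) * t * a := by rw [hz3 a⁻¹]
                _ = a⁻¹ * (z * t) * a := by group
                _ = t := h1
            rw [inv_inv, eq_inv_mul_iff_mul_eq]
            exact h2 }
      have hEn : E.Normal := by
        refine ⟨fun a ha g t ht => ?_⟩
        obtain ⟨z, hz1, hz2, hz3, hz4⟩ := ha (g⁻¹ * t * g) (by
          have := hTn.conj_mem t ht g⁻¹
          rwa [inv_inv] at this)
        refine ⟨z, hz1, hz2, hz3, ?_⟩
        calc g * a * g⁻¹ * t * (g * a * g⁻¹)⁻¹ = g * (a * (g⁻¹ * t * g) * a⁻¹) * g⁻¹ := by group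
          _ = g * (z * (g⁻¹ * t * g)) * g⁻¹ := by rw [hz4]
          _ = (g * z) * g⁻¹ * t := by group
          _ = (z * g) * g⁻¹ * t := by rw [hz3 g]
          _ = z * t := by group
      have hEp : IsPGroup 2 ↥E := by
        refine isPGroup_of_forall_coprime fun x hx => ?_
        have hxC : (x : G) ∈ Subgroup.centralizer (T : Set G) := by
          rw [Subgroup.mem_centralizer_iff]
          intro t ht
          obtain ⟨z, hz1, hz2, hz3, hz4⟩ := x.2 t ht
          have h1 : (⁅t, (x : G)⁆)⁻¹ = z := by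
            rw [commutatorElement_inv, commutatorElement_def, hz4]; group
          have h2 : ⁅t, (x : G)⁆ = z⁻¹ := by rw [← h1, inv_inv]
          refine commute_of_commutator_commute (p := 2) (by rwa [Subgroup.orderOf_coe]) ?_ (k := 1) ?_
          · rw [h2]; exact ((show Commute (x : G) z from hz3 x).inv_right).symm
          · rw [h2, pow_one, inv_pow, hz2, inv_one]
        have hxT : (x : G) ∈ T := hCT hxC
        obtain ⟨k, hk⟩ := isPGroup_pow_mem hTp hxT
        apply Subtype.ext
        exact eq_one_of_coprime_of_pow (by rwa [Subgroup.orderOf_coe]) hk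
      have hET : E ≤ T := CfsgH2.le_pCore hEn hEp
      refine sSup_le ?_
      rintro A ⟨hAS, ⟨hAc, hA2⟩, -⟩
      refine le_trans ?_ hET
      intro a ha t ht
      obtain ⟨h1, h2, h3⟩ := comm_of_class_two hcl (hAS ha) (hTS ht) (hA2 a ha)
      refine ⟨⁅a, t⁆, ?_, h2, hcen _ h1 h2 h3, ?_⟩
      · rw [commutatorElement_def]
        exact mul_mem (hTn.conj_mem t ht a) (inv_mem ht)
      · rw [commutatorElement_def]; group
    · have hCN : C ≤ Subgroup.normalizer (JJ 2 S : Set G) := le_sup_left.trans (hprop (C ⊔ S) le_sup_right hCS)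
      by_cases hJC : JJ 2 S ≤ C
      · -- Frattini
        have hSC : IsSyl 2 (S ⊓ C) C := hS.inf le_top (by rw [Subgroup.normalizer_eq_top])
        rw [eq_top_iff]
        intro g _
        obtain ⟨c, hc, y, hy, rfl⟩ := hSC.frattini (H := ⊤) le_top (by rw [Subgroup.normalizer_eq_top]) (Subgroup.mem_top g)
        refine mul_mem (hCN hc) ?_
        have hy2 := (Subgroup.mem_inf.mp hy).2
        have h1 : JJ 2 (S ⊓ C) = JJ 2 S := JJ_eq_of_le (le_inf (JJ_le S) hJC) inf_le_left
        rw [mem_normalizer_iff_cj]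
        conv_lhs => rw [← h1]
        unfold cj
        rw [← JJ_map (MulAut.conj y).toMonoidHom _ (MulAut.conj y).injective.injOn]
        have h2 : (S ⊓ C).map (MulAut.conj y).toMonoidHom = S ⊓ C := mem_normalizer_iff_cj.mp hy2
        rw [h2, h1]
      · exfalso
        -- the quotient by `T`
        let f : G →* G ⧸ T := QuotientGroup.mk' T
        have hf : Function.Surjective f := QuotientGroup.mk'_surjective T
        have hker : f.ker = T := QuotientGroup.ker_mk' T
        have hfT : ∀ x : G, f x = 1 ↔ x ∈ T := fun x => by rw [← MonoidHom.mem_ker, hker]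
        have hsolq : Group.IsSolvable (G ⧸ T) := inferInstance
        have hcore2 : pCore 2 (G ⧸ T) = ⊥ := CfsgH2.pCore_quotient_pCore 2
        have hJT : ¬ JJ 2 S ≤ T := fun h => hJC (h.trans hTC)
        -- some prime with large core
        obtain ⟨r, hr, hrtop⟩ : ∃ r : ℕ, ∃ _ : Fact r.Prime, (pCore r (G ⧸ T)).comap f ⊔ S = ⊤ ∧ r ≠ 2 := by
          by_contra hcon
          push Not at hcon
          apply hJT
          have h1 : ∀ (r : ℕ) [Fact r.Prime], (JJ 2 S).map f ≤ Subgroup.centralizer ((pCore r (G ⧸ T) : Subgroup (G ⧸ T)) : Set (G ⧸ T)) := by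
            intro r hr
            by_cases hr2 : r = 2
            · subst hr2
              rw [hcore2]
              intro x _
              rw [Subgroup.mem_centralizer_iff]
              intro y hy
              rw [SetLike.mem_coe, Subgroup.mem_bot] at hy
              rw [hy, one_mul, mul_one]
            · have hne : (pCore r (G ⧸ T)).comap f ⊔ S ≠ ⊤ := fun h => hr2 (hcon r hr h)
              have h2 := hprop _ le_sup_right hne
              rintro _ ⟨j, hj, rfl⟩
              rw [Subgroup.mem_centralizer_iff]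
              intro y hy
              obtain ⟨y, rfl⟩ := hf y
              have hyK : y ∈ (pCore r (G ⧸ T)).comap f := hy
              have hyN := h2 (Subgroup.mem_sup_left hyK)
              have h3 : ⁅y, j⁆ ∈ JJ 2 S := by
                rw [commutatorElement_def]
                exact mul_mem ((Subgroup.mem_normalizer_iff.mp hyN j).mp hj) (inv_mem hj)
              have hrn := pCore_normal' r (G ⧸ T)
              have h4 : f ⁅y, j⁆ ∈ pCore r (G ⧸ T) := by
                rw [map_commutatorElement, commutatorElement_def, mul_assoc, mul_assoc]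
                refine mul_mem hyK ?_
                rw [← mul_assoc]
                exact hrn.conj_mem _ (inv_mem hyK) (f j)
              obtain ⟨k, hk⟩ := isPGroup_pow_mem (hSp.map f) (⟨_, JJ_le S h3, rfl⟩ : f ⁅y, j⁆ ∈ S.map f)
              obtain ⟨k', hk'⟩ := isPGroup_pow_mem (CfsgH2.isPGroup_pCore r) h4
              have h5 : f ⁅y, j⁆ = 1 := by
                rw [← orderOf_eq_one_iff]
                exact Nat.eq_one_of_dvd_coprimes (Nat.Coprime.pow _ _ ((Nat.coprime_primes Nat.prime_two hr.out).mpr (Ne.symm hr2)))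
                  (orderOf_dvd_of_pow_eq_one hk) (orderOf_dvd_of_pow_eq_one hk')
              rw [map_commutatorElement, commutatorElement_eq_one_iff_mul_comm] at h5
              exact h5
          intro j hj
          rw [← hfT]
          obtain ⟨k, hk⟩ := isPGroup_pow_mem (hSp.map f) (⟨_, JJ_le S hj, rfl⟩ : f j ∈ S.map f)
          exact eq_one_of_centralizes_cores hsolq hcore2 hk fun r _ => h1 r ⟨j, hj, rfl⟩
        obtain ⟨hrtop, hr2⟩ := hrtop
        set F := (pCore r (G ⧸ T)).comap f with hF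
        have hrn := pCore_normal' r (G ⧸ T)
        have hFn : F.Normal := inferInstance
        have hCr : Subgroup.centralizer ((pCore r (G ⧸ T) : Subgroup (G ⧸ T)) : Set (G ⧸ T)) ≤ pCore r (G ⧸ T) := by
          refine centralizer_pCore_le_of_sup hsolq hcore2 (hSp.map f) ?_
          have h1 : (F ⊔ S).map f = ⊤ := by rw [hrtop, ← MonoidHom.range_eq_map, MonoidHom.range_eq_top.mpr hf]
          rwa [Subgroup.map_sup, hF, Subgroup.map_comap_eq_self_of_surjective hf] at h1
        have hdisj : ∀ x : G ⧸ T, x ∈ pCore r (G ⧸ T) → x ∈ S.map f → x = 1 := by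
          intro x hx1 hx2
          obtain ⟨k, hk⟩ := isPGroup_pow_mem (hSp.map f) hx2
          obtain ⟨k', hk'⟩ := isPGroup_pow_mem (CfsgH2.isPGroup_pCore r) hx1
          rw [← orderOf_eq_one_iff]
          exact Nat.eq_one_of_dvd_coprimes (Nat.Coprime.pow _ _ ((Nat.coprime_primes Nat.prime_two hr.out).mpr (Ne.symm hr2)))
            (orderOf_dvd_of_pow_eq_one hk) (orderOf_dvd_of_pow_eq_one hk')
        obtain ⟨A, hA, hAC⟩ : ∃ A, MaxGood 2 S A ∧ ¬ A ≤ C := by
          by_contra hcon
          push Not at hcon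
          exact hJC (sSup_le fun A hA => hcon A hA)
        have hAJ : A ≤ JJ 2 S := le_sSup hA
        have hAS : A ≤ S := hA.1
        have hfaith : ∀ a ∈ A, (∀ k ∈ F, a * k * a⁻¹ * k⁻¹ ∈ Subgroup.centralizer (V : Set G)) →
            a ∈ Subgroup.centralizer (V : Set G) := by
          intro a ha hk
          have h1 : ∀ y ∈ pCore r (G ⧸ T), y * f a = f a * y := by
            intro y hy
            obtain ⟨k, rfl⟩ := hf y
            have hkF : k ∈ F := hy
            have hc := hk k hkF
            set c := a * k * a⁻¹ * k⁻¹ with hcdef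
            have hcF : c ∈ F := mul_mem (hFn.conj_mem k hkF a) (inv_mem hkF)
            have h2 : a * c * a⁻¹ * c⁻¹ ∈ F := mul_mem (hFn.conj_mem c hcF a) (inv_mem hcF)
            have h3 : a * c * a⁻¹ * c⁻¹ ∈ JJ 2 S := by
              have h4 := (Subgroup.mem_normalizer_iff.mp (hCN hc) a⁻¹).mp (inv_mem (hAJ ha))
              have h5 := mul_mem (hAJ ha) h4
              have e : a * (c * a⁻¹ * c⁻¹) = a * c * a⁻¹ * c⁻¹ := by group
              rwa [e] at h5
            have h4 : f (a * c * a⁻¹ * c⁻¹) = 1 := hdisj _ h2 ⟨_, JJ_le S h3, rfl⟩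
            have h5 : f a * f c = f c * f a := by
              rw [map_mul, map_mul, map_mul, map_inv, map_inv] at h4
              calc f a * f c = (f a * f c * (f a)⁻¹ * (f c)⁻¹) * (f c * f a) := by group
                _ = f c * f a := by rw [h4, one_mul]
            have h6 : ⁅f k, f a⁆ = (f c)⁻¹ := by
              rw [hcdef, commutatorElement_def, map_mul, map_mul, map_mul, map_inv, map_inv]; group
            have h7 : (f c) ∈ pCore r (G ⧸ T) := hcF
            obtain ⟨n, hn⟩ := isPGroup_pow_mem (CfsgH2.isPGroup_pCore r) h7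
            refine commute_of_commutator_commute (p := r) (x := f k) (d := f a) (k := n) ?_ ?_ ?_
            · have h8 : orderOf (f a) ∣ 2 := by
                apply orderOf_dvd_of_pow_eq_one
                rw [← map_pow, hA.2.1.2 a ha, map_one]
              exact Nat.Coprime.coprime_dvd_left h8 ((Nat.coprime_primes Nat.prime_two hr.out).mpr (Ne.symm hr2))
            · rw [h6]
              exact ((show Commute (f a) (f c) from h5).inv_right).symm
            · rw [h6, inv_pow, hn, inv_one]
          have h2 : f a ∈ pCore r (G ⧸ T) := hCr (Subgroup.mem_centralizer_iff.mpr h1)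
          exact hTC ((hfT a).mp (hdisj _ h2 ⟨a, hAS ha, rfl⟩))
        have h1 := off_rgroup hr2 hqd (V := V) (F := F) (A := A) hVn hFn hVc hV2 (by
          intro x hx
          obtain ⟨n, hn⟩ := isPGroup_pow_mem (CfsgH2.isPGroup_pCore r) (show f x ∈ pCore r (G ⧸ T) from hx)
          refine ⟨n, hTC ?_⟩
          rw [← hfT, map_pow, hn]) hA.2.1.2 hA.2.1.1 hfaith hAC
        have h2 := maxGood_bound hA hVn (hVT.trans hTS) hVc hV2
        exact absurd h1 (not_lt.mpr h2)

end CfsgH7
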